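import Mathlib
import Cfsg.Agent.Lib.ChevAut.FieldCard

/-!
Fields generated by commuting irreducible endomorphisms of a finite abelian group.
-/

set_option autoImplicit false

namespace Cfsg.Agent.Lib.ExtPrim

universe u

section Field

variable {M : Type u} [AddCommGroup M] [Finite M] [Nontrivial M]

/-- The subring of endomorphisms generated by a commuting irreducible family is a field
acting simply transitively on the non-zero vectors. -/
theorem exists_field (s : Set (AddMonoid.End M)) (hcomm : ∀ x ∈ s, ∀ y ∈ s, x * y = y * x)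
    (hirr : ∀ W : AddSubgroup M, (∀ f ∈ s, ∀ x ∈ W, f x ∈ W) → W = ⊥ ∨ W = ⊤) :
    ∃ (F : Type u) (_ : Field F) (_ : Finite F) (φ : F →+* AddMonoid.End M),
      Function.Injective φ ∧ φ.range = Subring.closure s ∧
      ∀ u : M, u ≠ 0 → Function.Bijective (fun r : F => φ r u) := by
  classical
  -- elements of the closure commute with `s`
  have hcomm2 : ∀ r ∈ Subring.closure s, ∀ e ∈ s, r * e = e * r := by
    intro r hr e he
    induction hr using Subring.closure_induction with
    | mem x hx => exact hcomm x hx _ he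
    | zero => simp
    | one => simp
    | add x y _ _ ihx ihy => rw [add_mul, mul_add, ihx, ihy]
    | neg x _ ihx =>
      ext v
      have h := DFunLike.congr_fun ihx v
      show -(x (e v)) = e (-(x v))
      rw [map_neg]
      exact congrArg Neg.neg h
    | mul x y _ _ ihx ihy => rw [mul_assoc, ihy, ← mul_assoc, ihx, mul_assoc]
  -- kernels are invariant
  have hker : ∀ r ∈ Subring.closure s, r ≠ 0 → ∀ v : M, r v = 0 → v = 0 := by
    intro r hr hr0 v hv
    let W : AddSubgroup M := r.ker
    have hinv : ∀ e ∈ s, ∀ w ∈ W, e w ∈ W := by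
      intro e he w hw
      have h1 := hcomm2 r hr e he
      have h2 := DFunLike.congr_fun h1 w
      show r (e w) = 0
      have hw' : r w = 0 := hw
      show (r * e) w = 0
      rw [h2]
      show e (r w) = 0
      rw [hw', map_zero]
    rcases hirr W hinv with h | h
    · have h1 : v ∈ W := hv
      rw [h, AddSubgroup.mem_bot] at h1
      exact h1
    · exfalso
      apply hr0
      ext x
      have h1 : x ∈ W := by rw [h]; trivial
      exact h1
  -- images are invariant
  have him : ∀ u : M, u ≠ 0 → ∀ w : M, ∃ r ∈ Subring.closure s, r u = w := by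
    intro u hu w
    let W : AddSubgroup M :=
      { carrier := {x | ∃ r ∈ Subring.closure s, r u = x}
        add_mem' := by
          rintro _ _ ⟨a, ha, rfl⟩ ⟨b, hb, rfl⟩
          exact ⟨a + b, add_mem ha hb, rfl⟩
        zero_mem' := ⟨0, zero_mem _, rfl⟩
        neg_mem' := by
          rintro _ ⟨a, ha, rfl⟩
          exact ⟨-a, neg_mem ha, rfl⟩ }
    have hinv : ∀ e ∈ s, ∀ w ∈ W, e w ∈ W := by
      rintro e he _ ⟨a, ha, rfl⟩
      exact ⟨e * a, mul_mem (Subring.subset_closure he) ha, rfl⟩
    rcases hirr W hinv with h | h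
    · exfalso
      have h1 : u ∈ W := ⟨1, one_mem _, rfl⟩
      rw [h, AddSubgroup.mem_bot] at h1
      exact hu h1
    · have h1 : w ∈ W := by rw [h]; trivial
      exact h1
  let R := Subring.closure s
  letI iC : CommRing R := Subring.closureCommRingOfComm hcomm
  haveI : NoZeroDivisors R := by
    refine ⟨fun {a b} hab => ?_⟩
    by_contra hne
    push Not at hne
    obtain ⟨ha, hb⟩ := hne
    apply hb
    apply Subtype.ext
    ext x
    have h1 : ((a : AddMonoid.End M) * (b : AddMonoid.End M)) x = 0 := by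
      have : (a * b : R) = 0 := hab
      have h2 := congrArg (fun z : R => (z : AddMonoid.End M)) this
      exact DFunLike.congr_fun h2 x
    have ha' : (a : AddMonoid.End M) ≠ 0 := fun h => ha (Subtype.ext h)
    exact hker a a.2 ha' _ h1
  haveI : Nontrivial R := by
    refine ⟨⟨0, 1, ?_⟩⟩
    intro h
    have h2 : ((0 : R) : AddMonoid.End M) = ((1 : R) : AddMonoid.End M) := congrArg Subtype.val h
    obtain ⟨v, hv⟩ := exists_ne (0 : M)
    have h3 := DFunLike.congr_fun h2 v
    have h4 : (0 : M) = v := h3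
    exact hv h4.symm
  haveI : IsDomain R := NoZeroDivisors.to_isDomain R
  haveI hfinE : Finite (AddMonoid.End M) :=
    Finite.of_injective (fun f : AddMonoid.End M => (f : M → M)) DFunLike.coe_injective
  haveI : Finite R := Subtype.finite
  letI iF : Field R := (Finite.isField_of_domain R).toField
  let φ : R →+* AddMonoid.End M :=
    { toFun := Subtype.val
      map_one' := rfl
      map_mul' := fun _ _ => rfl
      map_zero' := rfl
      map_add' := fun _ _ => rfl }
  refine ⟨R, iF, inferInstance, φ, Subtype.val_injective, ?_, ?_⟩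
  · ext x
    constructor
    · rintro ⟨r, rfl⟩
      exact r.2
    · intro hx
      exact ⟨⟨x, hx⟩, rfl⟩
  · intro u hu
    constructor
    · intro a b hab
      have h1 : (a : AddMonoid.End M) u = (b : AddMonoid.End M) u := hab
      have h2 : ((a : AddMonoid.End M) - (b : AddMonoid.End M)) u = 0 := by
        show (a : AddMonoid.End M) u - (b : AddMonoid.End M) u = 0
        rw [h1, sub_self]
      by_contra hne
      have h3 : (a : AddMonoid.End M) - (b : AddMonoid.End M) ≠ 0 := by
        intro h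
        apply hne
        apply Subtype.ext
        exact sub_eq_zero.mp h
      exact hu (hker _ (sub_mem a.2 b.2) h3 u h2)
    · intro w
      obtain ⟨r, hr, hw⟩ := him u hu w
      exact ⟨⟨r, hr⟩, hw⟩

/-- Frobenius argument. If the family has elements of order dividing `q` and `q ∣ p ^ i - 1`,
then the group has at most `p ^ i` elements. -/
theorem card_le_of_pow (s : Set (AddMonoid.End M)) (hcomm : ∀ x ∈ s, ∀ y ∈ s, x * y = y * x)
    (hirr : ∀ W : AddSubgroup M, (∀ f ∈ s, ∀ x ∈ W, f x ∈ W) → W = ⊥ ∨ W = ⊤)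
    {p d q i : ℕ} (hp : p.Prime) (hcard : Nat.card M = p ^ d) (hi : 0 < i)
    (hs : ∀ f ∈ s, f ^ q = 1) (hq : q ∣ p ^ i - 1) : d ≤ i := by
  classical
  obtain ⟨F, iF, iFin, φ, hinj, hran, hbij⟩ := exists_field s hcomm hirr
  obtain ⟨u, hu⟩ := exists_ne (0 : M)
  have hcF : Nat.card F = p ^ d := by
    rw [← hcard]
    exact Nat.card_congr (Equiv.ofBijective _ (hbij u hu))
  haveI : Fact p.Prime := ⟨hp⟩
  haveI : Fintype F := Fintype.ofFinite F
  haveI : CharP F p := charP_of_card_eq_prime_pow (f := d) (by rw [← Nat.card_eq_fintype_card]; exact hcF)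
  -- all elements satisfy `r ^ (p ^ i) = r`
  have hpos : 1 ≤ p ^ i := Nat.one_le_pow _ _ hp.pos
  obtain ⟨t, ht⟩ := hq
  have hpi : p ^ i = 1 + q * t := by omega
  have hall : ∀ r : F, r ^ (p ^ i) = r := by
    let T : Subring F := (iterateFrobenius F p i).eqLocus (RingHom.id F)
    have hT : Subring.closure s ≤ T.map φ := by
      rw [Subring.closure_le]
      intro f hf
      have h1 : f ∈ φ.range := by rw [hran]; exact Subring.subset_closure hf
      obtain ⟨r, rfl⟩ := h1
      refine ⟨r, ?_, rfl⟩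
      have h2 : r ^ q = 1 := by
        apply hinj
        rw [map_pow, map_one]
        exact hs _ hf
      show iterateFrobenius F p i r = r
      rw [iterateFrobenius_def, hpi, pow_add, pow_one, pow_mul, h2, one_pow, mul_one]
    intro r
    have h1 : φ r ∈ φ.range := ⟨r, rfl⟩
    rw [hran] at h1
    obtain ⟨r', hr', he⟩ := hT h1
    have h2 : r' = r := hinj he
    subst h2
    have h3 : iterateFrobenius F p i r' = r' := hr'
    rwa [iterateFrobenius_def] at h3
  obtain ⟨g, hg⟩ := IsCyclic.exists_generator (α := Fˣ)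
  have hord : orderOf g = p ^ d - 1 := by
    rw [orderOf_eq_card_of_forall_mem_zpowers hg, Nat.card_eq_fintype_card, Fintype.card_units,
      ← Nat.card_eq_fintype_card, hcF]
  have hg1 : g ^ (p ^ i - 1) = 1 := by
    apply Units.ext
    have h0 : (g : F) ≠ 0 := g.ne_zero
    have h1 := hall (g : F)
    have h2 : p ^ i = (p ^ i - 1) + 1 := by omega
    rw [h2, pow_succ] at h1
    have h3 : (g : F) ^ (p ^ i - 1) = 1 := mul_right_cancel₀ h0 (by rw [one_mul]; exact h1)
    simpa using h3
  have hdvd := orderOf_dvd_of_pow_eq_one hg1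
  rw [hord] at hdvd
  have hlt : 0 < p ^ i - 1 := by
    have : 2 ^ i ≤ p ^ i := Nat.pow_le_pow_left hp.two_le i
    have h2 : 2 ≤ 2 ^ i := by
      calc 2 = 2 ^ 1 := rfl
        _ ≤ 2 ^ i := Nat.pow_le_pow_right (by norm_num) hi
    omega
  have hle := Nat.le_of_dvd hlt hdvd
  have hle2 : p ^ d ≤ p ^ i := by
    have : 1 ≤ p ^ d := Nat.one_le_pow _ _ hp.pos
    omega
  exact (Nat.pow_le_pow_iff_right hp.one_lt).mp hle2

/-- A group normalising the family and acting faithfully on it has order dividing the degree. -/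
theorem card_dvd_of_conj (s : Set (AddMonoid.End M)) (hcomm : ∀ x ∈ s, ∀ y ∈ s, x * y = y * x)
    (hirr : ∀ W : AddSubgroup M, (∀ f ∈ s, ∀ x ∈ W, f x ∈ W) → W = ⊥ ∨ W = ⊤)
    {p d : ℕ} (hp : p.Prime) (hcard : Nat.card M = p ^ d)
    {K : Type*} [Group K] [Finite K] (c : K →* AddMonoid.End M)
    (hc : ∀ y : K, ∀ f ∈ s, c y * f * c y⁻¹ ∈ s)
    (hfaith : ∀ y : K, (∀ f ∈ s, c y * f = f * c y) → y = 1) : Nat.card K ∣ d := by
  classical
  obtain ⟨F, iF, iFin, φ, hinj, hran, hbij⟩ := exists_field s hcomm hirr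
  obtain ⟨u, hu⟩ := exists_ne (0 : M)
  have hcF : Nat.card F = p ^ d := by
    rw [← hcard]
    exact Nat.card_congr (Equiv.ofBijective _ (hbij u hu))
  haveI : Fact p.Prime := ⟨hp⟩
  haveI : Fintype F := Fintype.ofFinite F
  haveI : CharP F p := charP_of_card_eq_prime_pow (f := d) (by rw [← Nat.card_eq_fintype_card]; exact hcF)
  have hcc : ∀ y : K, c y * c y⁻¹ = 1 := by
    intro y
    rw [← map_mul, mul_inv_cancel, map_one]
  have hcc' : ∀ y : K, c y⁻¹ * c y = 1 := by
    intro y
    rw [← map_mul, inv_mul_cancel, map_one]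
  have hclo : ∀ y : K, ∀ g ∈ Subring.closure s, c y * g * c y⁻¹ ∈ Subring.closure s := by
    intro y g hg
    induction hg using Subring.closure_induction with
    | mem x hx => exact Subring.subset_closure (hc y x hx)
    | zero => simp
    | one => rw [mul_one, hcc]; exact one_mem _
    | add a b _ _ iha ihb =>
      rw [mul_add, add_mul]
      exact add_mem iha ihb
    | neg a _ iha =>
      rw [mul_neg, neg_mul]
      exact neg_mem iha
    | mul a b _ _ iha ihb =>
      have : c y * (a * b) * c y⁻¹ = (c y * a * c y⁻¹) * (c y * b * c y⁻¹) := by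
        calc c y * (a * b) * c y⁻¹ = c y * a * 1 * b * c y⁻¹ := by noncomm_ring
          _ = c y * a * (c y⁻¹ * c y) * b * c y⁻¹ := by rw [hcc']
          _ = _ := by noncomm_ring
      rw [this]
      exact mul_mem iha ihb
  have hex : ∀ (y : K) (r : F), ∃ r' : F, φ r' = c y * φ r * c y⁻¹ := by
    intro y r
    have h1 : φ r ∈ φ.range := ⟨r, rfl⟩
    rw [hran] at h1
    have h2 := hclo y _ h1
    rw [← hran] at h2
    exact h2
  choose f hf using hex
  have hf1 : ∀ r, f 1 r = r := by
    intro r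
    apply hinj
    rw [hf, inv_one, map_one, one_mul, mul_one]
  have hfm : ∀ y z r, f (y * z) r = f y (f z r) := by
    intro y z r
    apply hinj
    rw [hf, hf, hf, mul_inv_rev, map_mul, map_mul]
    noncomm_ring
  let σ : K → (F ≃+* F) := fun y =>
    { toFun := f y
      invFun := f y⁻¹
      left_inv := fun r => by rw [← hfm, inv_mul_cancel, hf1]
      right_inv := fun r => by rw [← hfm, mul_inv_cancel, hf1]
      map_mul' := fun a b => by
        apply hinj
        rw [hf, map_mul, map_mul, hf, hf]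
        calc c y * (φ a * φ b) * c y⁻¹ = c y * φ a * 1 * φ b * c y⁻¹ := by noncomm_ring
          _ = c y * φ a * (c y⁻¹ * c y) * φ b * c y⁻¹ := by rw [hcc']
          _ = _ := by noncomm_ring
      map_add' := fun a b => by
        apply hinj
        rw [hf, map_add, map_add, hf, hf, mul_add, add_mul] }
  let Φ : K →* (F ≃+* F) :=
    { toFun := σ
      map_one' := by
        ext r
        exact hf1 r
      map_mul' := fun y z => by
        ext r
        exact hfm y z r }
  have hΦ : Function.Injective Φ := by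
    rw [injective_iff_map_eq_one]
    intro y hy
    apply hfaith
    intro g hg
    have h1 : g ∈ φ.range := by rw [hran]; exact Subring.subset_closure hg
    obtain ⟨r, rfl⟩ := h1
    have h2 : f y r = r := by
      have := DFunLike.congr_fun hy r
      exact this
    have h3 := hf y r
    rw [h2] at h3
    calc c y * φ r = (c y * φ r * c y⁻¹) * c y := by
            rw [mul_assoc, hcc', mul_one]
      _ = φ r * c y := by rw [← h3]
  have hFc : Nat.card (F ≃+* F) = d :=
    Cfsg.Agent.Lib.Chev.card_ringAut p d (by rw [← Nat.card_eq_fintype_card]; exact hcF)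
  rw [← hFc]
  exact Subgroup.card_dvd_of_injective Φ hΦ

end Field

/-- The arithmetic of a spread. -/
theorem not_dvd_of_spread {p d f q : ℕ} (hp : p.Prime) (hf : 0 < f) (hfd : f < d)
    (heq : p ^ d - 1 = q * (p ^ f - 1)) (i : ℕ) (hi : 0 < i) (hid : i < d) : ¬ q ∣ p ^ i - 1 := by
  intro hq
  have hp2 := hp.two_le
  have h2pow : ∀ k : ℕ, 0 < k → 2 ≤ p ^ k := by
    intro k hk
    calc 2 ≤ p := hp2
      _ = p ^ 1 := (pow_one p).symm
      _ ≤ p ^ k := Nat.pow_le_pow_right hp.pos hk
  -- `f` divides `d`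
  have hfdvd : f ∣ d := by
    have h1 : p ^ f - 1 ∣ p ^ d - 1 := ⟨q, by rw [heq, mul_comm]⟩
    have h2 := Nat.pow_sub_one_gcd_pow_sub_one p f d
    rw [Nat.gcd_eq_left h1] at h2
    have h3 : p ^ f = p ^ (Nat.gcd f d) := by
      have := h2pow f hf
      have := h2pow (Nat.gcd f d) (Nat.gcd_pos_of_pos_left _ hf)
      omega
    have h4 : f = Nat.gcd f d := Nat.pow_right_injective hp2 h3
    rw [h4]
    exact Nat.gcd_dvd_right f d
  -- the gcd with `i`
  set g := Nat.gcd i d with hg
  have hgpos : 0 < g := Nat.gcd_pos_of_pos_left _ hi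
  have hgdvd : g ∣ d := Nat.gcd_dvd_right i d
  have hqg : q ∣ p ^ g - 1 := by
    rw [hg, ← Nat.pow_sub_one_gcd_pow_sub_one]
    exact Nat.dvd_gcd hq ⟨p ^ f - 1, heq⟩
  have hgle : g < d := lt_of_le_of_lt (Nat.le_of_dvd hi (Nat.gcd_dvd_left i d)) hid
  have h2g : 2 * g ≤ d := by
    obtain ⟨k, hk⟩ := hgdvd
    have hk2 : 2 ≤ k := by
      rcases k with _ | _ | k
      · omega
      · omega
      · omega
    rw [hk]
    calc 2 * g = g * 2 := by ring
      _ ≤ g * k := Nat.mul_le_mul_left _ hk2
  have h2f : 2 * f ≤ d := by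
    obtain ⟨k, hk⟩ := hfdvd
    have hk2 : 2 ≤ k := by
      rcases k with _ | _ | k
      · omega
      · omega
      · omega
    rw [hk]
    calc 2 * f = f * 2 := by ring
      _ ≤ f * k := Nat.mul_le_mul_left _ hk2
  have hA := h2pow g hgpos
  have hB := h2pow f hf
  have hqle : q ≤ p ^ g - 1 := Nat.le_of_dvd (by omega) hqg
  have hprod : p ^ g * p ^ f ≤ p ^ d := by
    rw [← pow_add]
    exact Nat.pow_le_pow_right hp.pos (by omega)
  obtain ⟨a, ha⟩ : ∃ a, p ^ g = a + 2 := ⟨p ^ g - 2, by omega⟩
  obtain ⟨b, hb⟩ : ∃ b, p ^ f = b + 2 := ⟨p ^ f - 2, by omega⟩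
  rw [ha, hb] at hprod
  have hq2 : q ≤ a + 1 := by omega
  have heq2 : p ^ d - 1 = q * (b + 1) := by
    rw [heq, hb]
    rfl
  have h1 : q * (b + 1) ≤ (a + 1) * (b + 1) := Nat.mul_le_mul_right _ hq2
  have h3 : (a + 2) * (b + 2) = (a + 1) * (b + 1) + a + b + 3 := by ring
  omega

section Abs

variable {A : Type u} [CommGroup A] [Finite A] [Nontrivial A]

/-- The endomorphism of `Additive A` given by an automorphism of `A`. -/
def toEndA (a : MulAut A) : AddMonoid.End (Additive A) := MonoidHom.toAdditive (a : A →* A)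

theorem toEndA_apply (a : MulAut A) (x : A) : toEndA a (Additive.ofMul x) = Additive.ofMul (a x) := rfl

theorem toEndA_mul (a b : MulAut A) : toEndA (a * b) = toEndA a * toEndA b := rfl

theorem toEndA_one : toEndA (1 : MulAut A) = 1 := rfl

theorem toEndA_inj {a b : MulAut A} (h : toEndA a = toEndA b) : a = b := by
  ext x
  have := DFunLike.congr_fun h (Additive.ofMul x)
  exact congrArg Additive.toMul this

/-- Irreducibility transferred to the additive group. -/
theorem irr_additive (s : Set (MulAut A))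
    (hirr : ∀ W : Subgroup A, (∀ a ∈ s, ∀ w ∈ W, a w ∈ W) → W = ⊥ ∨ W = ⊤)
    (W : AddSubgroup (Additive A)) (hW : ∀ f ∈ toEndA '' s, ∀ x ∈ W, f x ∈ W) : W = ⊥ ∨ W = ⊤ := by
  let W' : Subgroup A :=
    { carrier := {a | Additive.ofMul a ∈ W}
      mul_mem' := fun {a b} ha hb => by
        show Additive.ofMul a + Additive.ofMul b ∈ W
        exact add_mem ha hb
      one_mem' := zero_mem W
      inv_mem' := fun {a} ha => by
        show - Additive.ofMul a ∈ W
        exact neg_mem ha }
  have hinv : ∀ a ∈ s, ∀ w ∈ W', a w ∈ W' := by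
    intro a ha w hw
    exact hW _ ⟨a, ha, rfl⟩ _ hw
  rcases hirr W' hinv with h | h
  · left
    rw [eq_bot_iff]
    intro x hx
    have h1 : Additive.toMul x ∈ W' := hx
    rw [h, Subgroup.mem_bot] at h1
    rw [AddSubgroup.mem_bot]
    exact congrArg Additive.ofMul h1
  · right
    rw [eq_top_iff]
    intro x _
    have h1 : Additive.toMul x ∈ W' := by rw [h]; trivial
    exact h1

/-- Abstract version of `card_le_of_pow`. -/
theorem abs_le_of_pow (s : Set (MulAut A)) (hcomm : ∀ x ∈ s, ∀ y ∈ s, x * y = y * x)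
    (hirr : ∀ W : Subgroup A, (∀ a ∈ s, ∀ w ∈ W, a w ∈ W) → W = ⊥ ∨ W = ⊤)
    {p d q i : ℕ} (hp : p.Prime) (hcard : Nat.card A = p ^ d) (hi : 0 < i)
    (hs : ∀ f ∈ s, f ^ q = 1) (hq : q ∣ p ^ i - 1) : d ≤ i := by
  haveI : Nontrivial (Additive A) := inferInstance
  haveI : Finite (Additive A) := inferInstanceAs (Finite A)
  refine card_le_of_pow (M := Additive A) (toEndA '' s) ?_ (irr_additive s hirr) hp
    (by rw [← hcard]; rfl) hi ?_ hq
  · rintro _ ⟨a, ha, rfl⟩ _ ⟨b, hb, rfl⟩
    rw [← toEndA_mul, ← toEndA_mul, hcomm a ha b hb]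
  · rintro _ ⟨a, ha, rfl⟩
    have h1 : ∀ n : ℕ, toEndA a ^ n = toEndA (a ^ n) := by
      intro n
      induction n with
      | zero => rfl
      | succ n ih => rw [pow_succ, pow_succ, ih, toEndA_mul]
    rw [h1, hs a ha, toEndA_one]

/-- Abstract version of `card_dvd_of_conj`. -/
theorem abs_dvd (s : Set (MulAut A)) (hcomm : ∀ x ∈ s, ∀ y ∈ s, x * y = y * x)
    (hirr : ∀ W : Subgroup A, (∀ a ∈ s, ∀ w ∈ W, a w ∈ W) → W = ⊥ ∨ W = ⊤)
    {p d : ℕ} (hp : p.Prime) (hcard : Nat.card A = p ^ d)
    {K : Type*} [Group K] [Finite K] (c : K →* MulAut A)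
    (hc : ∀ y : K, ∀ f ∈ s, c y * f * (c y)⁻¹ ∈ s)
    (hfaith : ∀ y : K, (∀ f ∈ s, c y * f = f * c y) → y = 1) : Nat.card K ∣ d := by
  haveI : Nontrivial (Additive A) := inferInstance
  haveI : Finite (Additive A) := inferInstanceAs (Finite A)
  let c' : K →* AddMonoid.End (Additive A) :=
    { toFun := fun y => toEndA (c y)
      map_one' := by rw [map_one, toEndA_one]
      map_mul' := fun a b => by rw [map_mul, toEndA_mul] }
  refine card_dvd_of_conj (M := Additive A) (toEndA '' s) ?_ (irr_additive s hirr) hp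
    (by rw [← hcard]; rfl) c' ?_ ?_
  · rintro _ ⟨a, ha, rfl⟩ _ ⟨b, hb, rfl⟩
    rw [← toEndA_mul, ← toEndA_mul, hcomm a ha b hb]
  · rintro y _ ⟨a, ha, rfl⟩
    refine ⟨_, hc y a ha, ?_⟩
    show toEndA (c y * a * (c y)⁻¹) = toEndA (c y) * toEndA a * toEndA (c y⁻¹)
    rw [toEndA_mul, toEndA_mul, map_inv]
  · intro y hy
    apply hfaith
    intro f hf
    apply toEndA_inj
    rw [toEndA_mul, toEndA_mul]
    exact hy _ ⟨f, hf, rfl⟩

end Abs

end Cfsg.Agent.Lib.ExtPrim
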